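import Cfsg.Agent.H171.RM.Count
import Cfsg.Agent.H171.RV.TwoP
import Cfsg.Agent.H171.Odd.Tools
import Cfsg.Agent.H555.RV.Crit
import Cfsg.Agent.H859.BigNum
import Cfsg.Agent.H858.Trans5
import Cfsg.Agent.QTNorm.SporJ4
import Cfsg.Agent.S5573
import Cfsg.Agent.S5575
import Cfsg.Agent.S1703
import Cfsg.Agent.H337.JankoOfIso
import Cfsg.Agent.NotCT.Orders

/-!
# S3849, P11: `J4` (helper153)
-/

set_option autoImplicit false

namespace Cfsg.Agent.H153.RM

open Cfsg Subgroup Cfsg.Agent.H571.DExt Cfsg.Agent.H555.RV Cfsg.Agent.H171.RM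

universe u

namespace JFour

open Cfsg.Agent.H859
open Cfsg.Agent.H171.Odd (Inv1 inv1_of_cent)

theorem hc : Nat.card Spor.J4 = 86775571046077562880 := NotCT.Orders.j4 ⟨MulEquiv.refl _⟩

theorem hfin : Finite Spor.J4 := Nat.finite_of_card_ne_zero (by rw [hc]; norm_num)

theorem hsim : IsSimpleGroup Spor.J4 := Cfsg.Agent.S1703.result.1

theorem hna : ¬ IsMulCommutative Spor.J4 := by
  have := hfin
  have := hsim
  intro hcm
  let _ : CommGroup Spor.J4 := { (inferInstance : Group Spor.J4) with mul_comm := fun a b => hcm.is_comm.comm a b }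
  have h3 : (Nat.card Spor.J4).Prime := IsSimpleGroup.prime_card
  rw [hc] at h3
  revert h3
  norm_num

theorem hJ : IsOfJankoFourType Spor.J4 := H337.isOfJankoFourType_of_isoJ4 ⟨MulEquiv.refl _⟩

theorem exists_sub {t : ℕ} (ht : t.Prime) (hd : t ∣ 86775571046077562880) :
    ∃ P : Subgroup Spor.J4, Nat.card P = t := by
  have := hfin
  have := Fact.mk ht
  obtain ⟨x, hx⟩ := exists_prime_orderOf_dvd_card' (G := Spor.J4) t (by rw [hc]; exact hd)
  exact ⟨zpowers x, by rw [Nat.card_zpowers, hx]⟩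

theorem p2_5 : ¬ Dom ({2, 5} : Set ℕ) Spor.J4 :=
  have := hfin
  nd_norm (a := 21) (b := 8) Nat.prime_two (by norm_num) (by norm_num) hc H858.Loc5.card_F5 H858.Loc5.card_normalizer_F5
    (by decide +kernel)

theorem p2_23 : ¬ Dom ({2, 23} : Set ℕ) Spor.J4 := by
  have := hfin
  obtain ⟨P, hP⟩ := exists_sub (t := 23) (by norm_num) (by norm_num)
  exact nd_norm (a := 21) (b := 1) Nat.prime_two (by norm_num) (by norm_num) hc hP (BigNum.data23 hP).2 (by decide +kernel)

theorem p2_29 : ¬ Dom ({2, 29} : Set ℕ) Spor.J4 := by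
  have := hfin
  obtain ⟨P, hP⟩ := exists_sub (t := 29) (by norm_num) (by norm_num)
  exact nd_norm (a := 21) (b := 2) Nat.prime_two (by norm_num) (by norm_num) hc hP (BigNum.data29' hP).2
    (by decide +kernel)

theorem p2_37 : ¬ Dom ({2, 37} : Set ℕ) Spor.J4 := by
  have := hfin
  obtain ⟨P, hP⟩ := exists_sub (t := 37) (by norm_num) (by norm_num)
  exact nd_norm (a := 21) (b := 2) Nat.prime_two (by norm_num) (by norm_num) hc hP (BigNum.data37 hP).2 (by decide +kernel)

theorem p2_43 : ¬ Dom ({2, 43} : Set ℕ) Spor.J4 := by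
  have := hfin
  obtain ⟨P, hP⟩ := exists_sub (t := 43) (by norm_num) (by norm_num)
  exact nd_norm (a := 21) (b := 1) Nat.prime_two (by norm_num) (by norm_num) hc hP (BigNum.data43 hP).2 (by decide +kernel)

/-! ### the prime 11 -/

theorem eleven : ∃ P : Subgroup Spor.J4, Nat.card P = 11 ^ 3 ∧
    Nat.card (normalizer (P : Set Spor.J4)) = 319440 := by
  have := hfin
  have := hsim
  have : Fact (Nat.Prime 11) := ⟨by norm_num⟩
  obtain ⟨U⟩ : Nonempty (Sylow 11 Spor.J4) := inferInstance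
  obtain ⟨-, h1, -, h2, -⟩ := Cfsg.Agent.S5575.result hna hJ U
  exact ⟨U, h1, by rw [h2]; norm_num⟩

theorem p2_11 : ¬ Dom ({2, 11} : Set ℕ) Spor.J4 := by
  have := hfin
  obtain ⟨P, h1, h2⟩ := eleven
  exact nd_chk (a := 21) (b := 4) Nat.prime_two (by norm_num) (by norm_num) hc h1 h2 (by decide +kernel)

theorem p3_11 : ¬ Dom ({3, 11} : Set ℕ) Spor.J4 := by
  have := hfin
  obtain ⟨P, h1, h2⟩ := eleven
  exact nd_chk (a := 3) (b := 1) Nat.prime_three (by norm_num) (by norm_num) hc h1 h2 (by decide +kernel)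

theorem p7_11 : ¬ Dom ({7, 11} : Set ℕ) Spor.J4 := by
  have := hfin
  obtain ⟨P, h1, h2⟩ := eleven
  exact nd_chk (a := 1) (b := 0) (by norm_num) (by norm_num) (by norm_num) hc h1 h2 (by decide +kernel)

/-! ### the prime 7 -/

/-- `S7` is conjugate to every subgroup of order 7 -/
theorem seven {x : Spor.J4} (hx : orderOf x = 7) : Nat.card (centralizer ({x} : Set Spor.J4)) = 840 ∧
    Nat.card (normalizer (zpowers x : Set Spor.J4)) = 2520 := by
  have := hfin
  have hf : Fact (Nat.Prime 7) := ⟨by norm_num⟩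
  have h49 : ¬ 7 ^ 2 ∣ Nat.card Spor.J4 := by rw [hc]; norm_num
  have hX : Nat.card (zpowers x) = 7 := by rw [Nat.card_zpowers, hx]
  obtain ⟨P, hP⟩ : ∃ P : Sylow 7 Spor.J4, (P : Subgroup Spor.J4) = zpowers x := by
    obtain ⟨P, hP⟩ := (IsPGroup.of_card (p := 7) (n := 1) (G := zpowers x) (by rw [hX, pow_one])).exists_le_sylow
    refine ⟨P, (eq_of_le_of_card_ge hP ?_).symm⟩
    obtain ⟨k, hk⟩ := P.isPGroup'.exists_card_eq
    have h1 : k ≤ 1 := by
      by_contra hlt
      apply h49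
      have h2 := card_subgroup_dvd_card (P : Subgroup Spor.J4)
      rw [hk] at h2
      exact (pow_dvd_pow 7 (by omega)).trans h2
    rw [hX, hk]
    exact (Nat.pow_le_pow_right (by norm_num) h1).trans (by norm_num)
  obtain ⟨S, hS⟩ : ∃ S : Sylow 7 Spor.J4, (S : Subgroup Spor.J4) = H858.Norm57.S7 :=
    ⟨H858.Norm57.isPGroup_S7.toSylow H858.Norm57.not_dvd_S7, rfl⟩
  obtain ⟨g, hg⟩ := MulAction.exists_smul_eq Spor.J4 S P
  have h1 : H858.Norm57.S7.map (MulAut.conj g).toMonoidHom = zpowers x := by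
    have := congrArg (fun X : Sylow 7 Spor.J4 => (X : Subgroup Spor.J4)) hg
    rw [← hP, ← this, ← hS]
    rfl
  have h2 : Nat.card (centralizer (zpowers x : Set Spor.J4)) = 840 := by
    rw [← h1, ← H858.Abs.map_centralizer_equiv, card_map_of_injective (MulAut.conj g).injective, H858.Loc7.card_C]
  refine ⟨?_, ?_⟩
  · rw [← h2]
    congr 2
    ext y
    rw [mem_centralizer_singleton_iff, mem_centralizer_iff]
    constructor
    · rintro h _ ⟨k, rfl⟩
      exact ((show Commute x y from h.symm).zpow_left k).eq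
    · intro h
      exact (h x (mem_zpowers x)).symm
  · rw [← h1, ← H858.Abs.map_normalizer_equiv, card_map_of_injective (MulAut.conj g).injective, H858.Norm57.card_normalizer_S7]

theorem p2_7 : ¬ Dom ({2, 7} : Set ℕ) Spor.J4 := by
  have := hfin
  have hI : Inv1 2 7 Spor.J4 := by
    refine inv1_of_cent (a := 20) (w := 1) (b := 1) Nat.prime_two (by norm_num) (by rw [hc]; norm_num)
      (by rw [hc]; norm_num) ?_ ?_
    · intro k h1 h2
      interval_cases k
      norm_num
    · intro y hy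
      rw [(seven hy).1]
      norm_num
  refine no2_of_odd (a := 21) (m := 5911116671295) (by norm_num) (by norm_num) (by rw [hc]; norm_num) (by norm_num)
    (by norm_num) hI ?_ ?_
  · intro x hx t k ht htn
    exact cent_of_odd (e := 3) (by norm_num) (by rw [(seven hx).1, (seven hx).2]) t k ht htn
  · intro T hT hTi
    have hf : Fact (Nat.Prime 2) := ⟨Nat.prime_two⟩
    exact QTNorm.JFour.selfN_j4 ⟨MulEquiv.refl _⟩ (hT.toSylow hTi)

/-! ### the prime 31 -/

theorem p2_31 : ¬ Dom ({2, 31} : Set ℕ) Spor.J4 := by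
  have := hfin
  have hf : Fact (Nat.Prime 31) := ⟨by norm_num⟩
  obtain ⟨z, P, hz, hE, -, hC, -⟩ := hJ
  have hzz : z * z = 1 := by rw [← pow_two, ← hz, pow_orderOf_eq_one]
  have hz1 : z ≠ 1 := by
    rintro rfl
    rw [orderOf_one] at hz
    norm_num at hz
  set E := twoCoreOfCentralizer z with hEd
  have hEC : E ≤ centralizer ({z} : Set Spor.J4) := map_subtype_le _
  have h31 : ¬ 31 ∣ Nat.card (centralizer ({z} : Set Spor.J4)) := by
    intro hd
    obtain ⟨⟨x, hxz⟩, hx⟩ := exists_prime_orderOf_dvd_card' 31 hd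
    rw [Subgroup.orderOf_mk] at hx
    have hX : Nat.card (zpowers x) = 31 := by rw [Nat.card_zpowers, hx]
    have h1 := (BigNum.data31 hX).1
    have h2 : z ∈ centralizer (zpowers x : Set Spor.J4) := by
      rw [mem_centralizer_iff]
      rintro _ ⟨k, rfl⟩
      exact ((show Commute x z from mem_centralizer_singleton_iff.1 hxz).zpow_left k).eq
    have h3 := Subgroup.orderOf_dvd_natCard _ h2
    rw [hz, h1] at h3
    norm_num at h3
  have hEp : IsPGroup 2 E := by
    have : Fact (Nat.Prime 2) := ⟨Nat.prime_two⟩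
    exact (Lib.Cores.pCore_isPGroup 2).map _
  -- the centre of `E`
  have hZ : Nat.card (center E) = 2 := hE.2
  have hzE : z ∈ E := hC (Subgroup.mem_inf.2 ⟨mem_centralizer_singleton_iff.2 rfl, by
    rw [mem_centralizer_iff]
    intro y hy
    exact mem_centralizer_singleton_iff.1 (hEC hy)⟩)
  have hzt := H171.RV.TwoP.zt_of_cent (S := Spor.J4) (R := E) (z := z) hEp hz1 hzz (M := Nat.card
    (centralizer ({z} : Set Spor.J4))) (fun x hxx hx => by
    have hxz : x * z = z * x := (hx z hzE).symm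
    have hxE : x ∈ E := hC (Subgroup.mem_inf.2 ⟨mem_centralizer_singleton_iff.2 hxz, by
      rw [mem_centralizer_iff]
      exact hx⟩)
    by_contra hcon
    push Not at hcon
    have h1 : (⟨z, hzE⟩ : E) ∈ center E := by
      rw [mem_center_iff]
      intro y
      exact Subtype.ext (mem_centralizer_singleton_iff.1 (hEC y.2))
    have h2 : (⟨x, hxE⟩ : E) ∈ center E := by
      rw [mem_center_iff]
      intro y
      exact Subtype.ext (hx y y.2)
    have h3 : ({1, ⟨_, h1⟩, ⟨_, h2⟩} : Set (center E)).ncard = 3 := by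
      rw [Set.ncard_insert_of_notMem, Set.ncard_pair]
      · intro h4
        exact hcon.2 (congrArg (fun y : center E => ((y : E) : Spor.J4)) h4).symm
      · rintro (h4 | h4)
        · exact hz1 (congrArg (fun y : center E => ((y : E) : Spor.J4)) h4).symm
        · exact hcon.1 (congrArg (fun y : center E => ((y : E) : Spor.J4)) h4).symm
    have h4 := Set.ncard_le_card ({1, ⟨_, h1⟩, ⟨_, h2⟩} : Set (center E))
    rw [h3, hZ] at h4
    omega) dvd_rfl
  exact H171.RV.TwoP.no2_of_zt hzt (a := 21) (b := 1334768280615) (by norm_num) (by rw [hc]; norm_num)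
    (by decide +kernel) (by norm_num) (by norm_num) h31

end JFour

variable {S : Type u} [Group S] [Finite S]

theorem no2_j4_5 (h : Spor.IsoJ4 S) : ¬ Dom ({2, 5} : Set ℕ) S := by
  obtain ⟨e⟩ := h
  exact fun hD => JFour.p2_5 (dom_equiv e hD)
theorem no2_j4_7 (h : Spor.IsoJ4 S) : ¬ Dom ({2, 7} : Set ℕ) S := by
  obtain ⟨e⟩ := h
  exact fun hD => JFour.p2_7 (dom_equiv e hD)
theorem no2_j4_11 (h : Spor.IsoJ4 S) : ¬ Dom ({2, 11} : Set ℕ) S := by
  obtain ⟨e⟩ := h
  exact fun hD => JFour.p2_11 (dom_equiv e hD)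
theorem no2_j4_23 (h : Spor.IsoJ4 S) : ¬ Dom ({2, 23} : Set ℕ) S := by
  obtain ⟨e⟩ := h
  exact fun hD => JFour.p2_23 (dom_equiv e hD)
theorem no2_j4_29 (h : Spor.IsoJ4 S) : ¬ Dom ({2, 29} : Set ℕ) S := by
  obtain ⟨e⟩ := h
  exact fun hD => JFour.p2_29 (dom_equiv e hD)
theorem no2_j4_31 (h : Spor.IsoJ4 S) : ¬ Dom ({2, 31} : Set ℕ) S := by
  obtain ⟨e⟩ := h
  exact fun hD => JFour.p2_31 (dom_equiv e hD)
theorem no2_j4_37 (h : Spor.IsoJ4 S) : ¬ Dom ({2, 37} : Set ℕ) S := by
  obtain ⟨e⟩ := h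
  exact fun hD => JFour.p2_37 (dom_equiv e hD)
theorem no2_j4_43 (h : Spor.IsoJ4 S) : ¬ Dom ({2, 43} : Set ℕ) S := by
  obtain ⟨e⟩ := h
  exact fun hD => JFour.p2_43 (dom_equiv e hD)
theorem no_j4_3_11 (h : Spor.IsoJ4 S) : ¬ Dom ({3, 11} : Set ℕ) S := by
  obtain ⟨e⟩ := h
  exact fun hD => JFour.p3_11 (dom_equiv e hD)
theorem no_j4_7_11 (h : Spor.IsoJ4 S) : ¬ Dom ({7, 11} : Set ℕ) S := by
  obtain ⟨e⟩ := h
  exact fun hD => JFour.p7_11 (dom_equiv e hD)

end Cfsg.Agent.H153.RM
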